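import Cfsg.Agent.H8.Meta

/-! Chermak-Delgado measure in metacyclic `p`-groups. -/

set_option autoImplicit false

namespace Cfsg.Agent.Reg

open Subgroup hiding commutator_def
open Function Cfsg.Agent.Hopf
open scoped commutatorElement

universe u

variable {G : Type u} [Group G] {p : ℕ} [Finite G] [hp : Fact p.Prime]
variable (hp2 : p ≠ 2) (hG : IsPGroup p G) (hm : IsMetacyclic G)
include hp2 hG hm

theorem meta_f : Nat.card G * Nat.card (center G) = (_root_.commutator G).index ^ 2 := by
  have h1 := (center G).card_mul_index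
  have h2 := (_root_.commutator G).card_mul_index
  rw [meta_index_center hp2 hG hm] at h1
  refine Nat.eq_of_mul_eq_mul_right (pow_pos (Nat.card_pos (α := _root_.commutator G)) 2) ?_
  rw [mul_assoc, h1, ← mul_pow, mul_comm (index _), h2, pow_two]

theorem meta_cl (R : Subgroup G) : Nat.card R * Nat.card (center R) ≤ (_root_.commutator G).index ^ 2 ∧
    (Nat.card R * Nat.card (center R) = (_root_.commutator G).index ^ 2 ↔
      ¬ IsMulCommutative R ∨ Maximal (fun K : Subgroup G => IsMulCommutative K) R) := by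
  obtain ⟨h1, h2⟩ := meta_sub_index hp2 hG hm R
  rw [meta_f hp2 (hG.to_subgroup R) (meta_inj hm _ R.subtype_injective), meta_max_iff hp2 hG hm, comm_iff_der]
  refine ⟨Nat.pow_le_pow_left h1 2, ?_⟩
  rw [Nat.pow_left_inj two_ne_zero]
  by_cases h : _root_.commutator R = ⊥
  · simp [h]
  · simp [h, h2 h]

theorem meta_maxc : maxCentralProduct G = (_root_.commutator G).index ^ 2 := by
  apply le_antisymm
  · obtain ⟨Q, hQ⟩ := H2.exists_cl (G := G)
    rw [← hQ]; exact (meta_cl hp2 hG hm Q).1
  · obtain ⟨A, hA⟩ := exists_maximal_of_wellFoundedGT (fun K : Subgroup G => IsMulCommutative K) ⟨⊥, inferInstance⟩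
    rw [← (meta_cl hp2 hG hm A).2.2 (Or.inr hA), H2.card_center_eq]
    exact H2.cl_le A

theorem meta_cd (R : Subgroup G) : IsCentralizerLarge R ↔ center G ≤ R := by
  refine ⟨fun h x hx => (H2.cd_cent h).2 ▸ fun y _ => mem_center_iff.1 hx y, fun h => H2.cd_of_ge ?_⟩
  rw [← H2.max_eq, meta_maxc hp2 hG hm, ← meta_f hp2 hG hm]
  have hs := QuotientGroup.mk'_surjective (center G)
  obtain ⟨⟨_, ha'⟩, ⟨_, hb'⟩, -, h1, h2⟩ := meta_split hp2 ((hG.to_quotient _).to_subgroup _)
    (meta_inj (meta_surj hm _ hs) _ (R.map (QuotientGroup.mk' (center G))).subtype_injective)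
  rw [orderOf_mk, orderOf_mk] at h1
  obtain ⟨a, ha, rfl⟩ := id ha'
  obtain ⟨b, hb, rfl⟩ := id hb'
  have h3 : ∀ g : G, (centralizer ({g} : Set G)).index ≤ orderOf (QuotientGroup.mk' (center G) g) := fun g => by
    obtain ⟨k, hk⟩ := IsPGroup.iff_orderOf.1 (hG.to_quotient (center G)) (QuotientGroup.mk' (center G) g)
    rw [hk, (meta_r1 hp2 hG hm).index_cent (meta_der hm), ← QuotientGroup.eq_one_iff, ← hk]
    exact pow_orderOf_eq_one (QuotientGroup.mk' (center G) g)
  have h4 : R = closure ({a, b} : Set G) ⊔ center G := by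
    have := congrArg (map (R.map (QuotientGroup.mk' (center G))).subtype) h2
    rw [MonoidHom.map_closure, Set.image_pair, ← MonoidHom.range_eq_map, range_subtype] at this
    have := congrArg (comap (QuotientGroup.mk' (center G))) this
    rw [comap_map_eq, QuotientGroup.ker_mk', sup_eq_left.2 h] at this
    have h0 := comap_map_eq (QuotientGroup.mk' (center G)) (closure ({a, b} : Set G))
    rw [QuotientGroup.ker_mk', MonoidHom.map_closure, Set.image_pair] at h0
    rw [← this, ← h0]
    rfl
  have h5 : centralizer ({a} : Set G) ⊓ centralizer ({b} : Set G) ≤ centralizer (R : Set G) := fun c hc => by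
    have : R ≤ centralizer ({c} : Set G) := by
      rw [h4, sup_le_iff, closure_le]
      refine ⟨?_, fun x hx => mem_centralizer_singleton_iff.2 (mem_center_iff.1 hx c).symm⟩
      rintro _ (rfl | rfl)
      · exact mem_centralizer_singleton_iff.2 (mem_centralizer_singleton_iff.1 hc.1).symm
      · exact mem_centralizer_singleton_iff.2 (mem_centralizer_singleton_iff.1 hc.2).symm
    exact fun x hx => mem_centralizer_singleton_iff.1 (this hx)
  have h6 := (Nat.le_of_dvd (Nat.pos_of_ne_zero index_ne_zero_of_finite) (index_dvd_of_le h5)).trans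
    (index_inf_le.trans ((Nat.mul_le_mul (h3 a) (h3 b)).trans h1.le))
  have h7 := H1.card_comap_mk' (center G) (R.map (QuotientGroup.mk' (center G)))
  rw [comap_map_eq, QuotientGroup.ker_mk', sup_eq_left.2 h] at h7
  rw [← (centralizer (R : Set G)).card_mul_index, h7, mul_assoc, mul_comm, mul_comm (index _)]
  exact Nat.mul_le_mul_right _ (Nat.mul_le_mul_left _ h6)

end Cfsg.Agent.Reg
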